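import Cfsg.Agent.TTClass.OrthModels
import Cfsg.Agent.ExtraTwo.Siegel

/-!
The minus type quadratic space of dimension six over the field with two elements.
-/

set_option autoImplicit false
set_option maxRecDepth 100000

namespace Cfsg.Agent.SuzType

open Cfsg.Agent.ExtraTwo Cfsg.Agent.TTClass

/-- The space. -/
abbrev V6 : Type := (Fin 2 ⊕ Fin 2) ⊕ Fin 2 → ZMod 2

/-- The form. -/
abbrev q6 : V6 → ZMod 2 := Cfsg.quadFormMinus 2 (ZMod 2) 1 1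

/-- The polar form. -/
abbrev b6 : V6 →ₗ[ZMod 2] V6 →ₗ[ZMod 2] ZMod 2 := OrthModels.bMinus 2

/-- A vector from its coordinates. -/
def mk6 (e₁ e₂ f₁ f₂ a b : ZMod 2) : V6 := Sum.elim (Sum.elim ![e₁, e₂] ![f₁, f₂]) ![a, b]

/-- A singular vector. -/
def s6 : V6 := mk6 1 0 0 0 0 0

/-- Its partner. -/
def f6 : V6 := mk6 0 0 1 0 0 0

/-- A singular vector orthogonal to both. -/
def t6 : V6 := mk6 0 0 0 1 0 0

/-- A non-singular vector orthogonal to both. -/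
def w6 : V6 := mk6 0 0 0 0 1 0

/-- A non-singular vector orthogonal to both and not to `w6`. -/
def d6 : V6 := mk6 0 0 0 0 0 1

theorem hyp2 : Hyp2 q6 b6 s6 f6 :=
  ⟨OrthModels.qf_minus 2, by decide +kernel, by decide +kernel, by decide +kernel⟩

theorem orb_symm {P : V6 → Prop} {a b : V6} (h : Orb q6 b6 P a b) : Orb q6 b6 P b a := by
  have h2 : ∀ x y : ZMod 2, x + (x + y) = y := by decide
  induction h with
  | refl => exact Relation.ReflTransGen.refl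
  | tail _ hst ih =>
    obtain ⟨u, v, hu, hv, qu, qv, huv, rfl⟩ := hst
    have hq := hyp2.qf
    refine Relation.ReflTransGen.head ⟨v, u, hv, hu, qv, qu, (hq.symm v u).trans huv, ?_⟩ ih
    simp only [pairMap, map_add, map_smul, LinearMap.add_apply, LinearMap.smul_apply, smul_eq_mul,
      hq.self, hq.symm v u, huv, mul_zero, mul_one, add_zero]
    rename_i c d
    rcases OrthF2.z2 (b6 c u) with k | k <;> rcases OrthF2.z2 (b6 c v) with l | l <;>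
      simp [k, l, add_assoc, add_comm, add_left_comm, OrthF2.add_self', add_left_self,
        CharTwo.add_self_eq_zero, h2]

/-- Pairs generating a transitive action on singular vectors. -/
def gAll : List (V6 × V6) :=
  [(mk6 0 0 0 0 0 1, mk6 0 0 1 0 1 0), (mk6 0 0 0 0 1 0, mk6 0 0 1 1 0 1),
   (mk6 0 1 1 0 1 0, mk6 1 0 0 1 1 1), (mk6 0 0 0 1 1 0, mk6 1 1 1 0 0 0),
   (mk6 0 0 1 0 1 1, mk6 0 1 1 0 0 1), (mk6 0 0 1 1 1 0, mk6 0 1 0 0 1 0)]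

/-- Pairs orthogonal to the hyperbolic pair. -/
def gSing : List (V6 × V6) :=
  [(mk6 0 0 0 0 0 1, mk6 0 1 0 0 1 0), (mk6 0 0 0 1 0 1, mk6 0 1 0 0 0 1)]

/-- Pairs orthogonal to the hyperbolic pair. -/
def gNons : List (V6 × V6) :=
  [(mk6 0 0 0 0 0 1, mk6 0 0 0 0 1 0), (mk6 0 0 0 1 0 1, mk6 0 1 0 0 0 1),
   (mk6 0 0 0 0 0 1, mk6 0 0 0 1 1 1)]

/-- A pair orthogonal to the hyperbolic pair and to `w6`. -/
def gFix : List (V6 × V6) := [(mk6 0 0 0 1 1 0, mk6 0 1 0 0 1 0)]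

/-- At most two moves. -/
def Reach2 (L : List (V6 × V6)) (a b : V6) : Prop :=
  b = a ∨ ∃ p ∈ L, b = pairMap b6 p.1 p.2 a ∨
    ∃ p' ∈ L, b = pairMap b6 p'.1 p'.2 (pairMap b6 p.1 p.2 a)

theorem gAll_ok : ∀ p ∈ gAll, q6 p.1 = 1 ∧ q6 p.2 = 1 ∧ b6 p.1 p.2 = 1 := by decide +kernel

theorem gSing_ok : ∀ p ∈ gSing, q6 p.1 = 1 ∧ q6 p.2 = 1 ∧ b6 p.1 p.2 = 1 ∧
    (b6 p.1 s6 = 0 ∧ b6 p.1 f6 = 0) ∧ (b6 p.2 s6 = 0 ∧ b6 p.2 f6 = 0) := by decide +kernel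

theorem gNons_ok : ∀ p ∈ gNons, q6 p.1 = 1 ∧ q6 p.2 = 1 ∧ b6 p.1 p.2 = 1 ∧
    (b6 p.1 s6 = 0 ∧ b6 p.1 f6 = 0) ∧ (b6 p.2 s6 = 0 ∧ b6 p.2 f6 = 0) := by decide +kernel

theorem gFix_ok : ∀ p ∈ gFix, q6 p.1 = 1 ∧ q6 p.2 = 1 ∧ b6 p.1 p.2 = 1 ∧
    (b6 p.1 s6 = 0 ∧ b6 p.1 f6 = 0 ∧ b6 p.1 w6 = 0) ∧
    (b6 p.2 s6 = 0 ∧ b6 p.2 f6 = 0 ∧ b6 p.2 w6 = 0) := by decide +kernel

theorem orb_of_reach {L : List (V6 × V6)} {P : V6 → Prop}
    (hL : ∀ p ∈ L, q6 p.1 = 1 ∧ q6 p.2 = 1 ∧ b6 p.1 p.2 = 1 ∧ P p.1 ∧ P p.2) {a b : V6}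
    (h : Reach2 L a b) : Orb q6 b6 P a b := by
  have st : ∀ p ∈ L, ∀ x, Step q6 b6 P x (pairMap b6 p.1 p.2 x) := fun p hp x =>
    ⟨p.1, p.2, (hL p hp).2.2.2.1, (hL p hp).2.2.2.2, (hL p hp).1, (hL p hp).2.1, (hL p hp).2.2.1, rfl⟩
  rcases h with rfl | ⟨p, hp, rfl | ⟨p', hp', rfl⟩⟩
  · exact Relation.ReflTransGen.refl
  · exact Relation.ReflTransGen.single (st p hp a)
  · exact (Relation.ReflTransGen.single (st p hp a)).tail (st p' hp' _)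

/-- The orthogonal of the hyperbolic pair. -/
def dList : List V6 :=
  [mk6 0 0 0 0 0 0, mk6 0 0 0 0 0 1, mk6 0 0 0 0 1 0, mk6 0 0 0 0 1 1,
   mk6 0 0 0 1 0 0, mk6 0 0 0 1 0 1, mk6 0 0 0 1 1 0, mk6 0 0 0 1 1 1,
   mk6 0 1 0 0 0 0, mk6 0 1 0 0 0 1, mk6 0 1 0 0 1 0, mk6 0 1 0 0 1 1,
   mk6 0 1 0 1 0 0, mk6 0 1 0 1 0 1, mk6 0 1 0 1 1 0, mk6 0 1 0 1 1 1]

theorem mem_dList : ∀ v, b6 v s6 = 0 ∧ b6 v f6 = 0 → v ∈ dList := by decide +kernel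

theorem dList_perp : ∀ v ∈ dList, b6 v s6 = 0 ∧ b6 v f6 = 0 := by decide +kernel

theorem reach_all : ∀ a, q6 a = 0 → a ≠ 0 → Reach2 gAll s6 a := by
  unfold Reach2; decide +kernel

theorem reach_sing : ∀ a ∈ dList, q6 a = 0 → a ≠ 0 → Reach2 gSing t6 a := by
  unfold Reach2; decide +kernel

theorem reach_nons : ∀ a ∈ dList, q6 a = 1 → Reach2 gNons w6 a := by
  unfold Reach2; decide +kernel

theorem reach_fix : ∀ d ∈ dList, q6 d = 1 → b6 d w6 = 1 →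
    Reach2 gFix d6 d ∨ Reach2 gFix d6 (d + w6) := by
  unfold Reach2; decide +kernel

theorem sing_perp : ∀ w ∈ dList, q6 w = 0 → w ≠ 0 → ∀ d ∈ dList, q6 d = 0 → b6 d w = 0 →
    d = 0 ∨ d = w := by decide +kernel

theorem fixw : ∀ w ∈ dList, q6 w = 0 → w ≠ 0 → ∀ x ∈ dList, x = 0 ∨ x = w ∨
    ∃ u ∈ dList, q6 u = 1 ∧ b6 u w = 0 ∧ b6 x u = 1 ∧
      ∃ v ∈ dList, q6 v = 1 ∧ b6 v w = 0 ∧ b6 u v = 1 := by decide +kernel

theorem neighbour : ∀ d ∈ dList, d ≠ 0 → q6 d = 0 → ∃ d' ∈ dList, q6 d' = 0 ∧ b6 d d' = 1 := by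
  decide +kernel

theorem span : ∀ w ∈ dList, ∃ a ∈ dList, q6 a = 0 ∧ ∃ b ∈ dList, q6 b = 0 ∧ w = a + b := by
  decide +kernel

theorem triple : ∃ a ∈ dList, q6 a = 0 ∧ ∃ b ∈ dList, q6 b = 0 ∧ b6 a b = 1 ∧ ∃ c ∈ dList,
    q6 c = 0 ∧ b6 b c = 1 ∧ b6 a c = 1 := by decide +kernel

theorem model : Model q6 b6 s6 f6 where
  hp := hyp2
  trans a ha ha0 := orb_of_reach (fun p hp => ⟨(gAll_ok p hp).1, (gAll_ok p hp).2.1,
    (gAll_ok p hp).2.2, trivial, trivial⟩) (reach_all a ha ha0)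
  transD w w' hw hw' h0 h0' he := by
    rcases OrthF2.z2 (q6 w) with k | k
    · have h1 := orb_of_reach (P := perp2 b6 s6 f6) gSing_ok (reach_sing w (mem_dList w hw) k h0)
      have h2 := orb_of_reach (P := perp2 b6 s6 f6) gSing_ok
        (reach_sing w' (mem_dList w' hw') (he ▸ k) h0')
      exact (orb_symm h1).trans h2
    · have h1 := orb_of_reach (P := perp2 b6 s6 f6) gNons_ok (reach_nons w (mem_dList w hw) k)
      have h2 := orb_of_reach (P := perp2 b6 s6 f6) gNons_ok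
        (reach_nons w' (mem_dList w' hw') (he ▸ k))
      exact (orb_symm h1).trans h2
  neighbour d hd h0 hq := by
    obtain ⟨d', hd', h1, h2⟩ := neighbour d (mem_dList d hd) h0 hq
    exact ⟨d', dList_perp d' hd', h1, h2⟩
  fixw w hw h0 hq x hx hall := by
    rcases fixw w (mem_dList w hw) hq h0 x (mem_dList x hx) with e | e |
      ⟨u, hu, qu, uw, xu, v, hv, qv, vw, uv⟩
    · exact Or.inl e
    · exact Or.inr e
    · rw [hall u v (dList_perp u hu) (dList_perp v hv) uw vw qu qv uv] at xu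
      exact absurd xu zero_ne_one
  triple := by
    obtain ⟨a, ha, qa, b, hb, qb, ab, c, hc, qc, bc, ac⟩ := triple
    exact ⟨a, b, c, dList_perp a ha, dList_perp b hb, dList_perp c hc, qa, qb, qc, ab, bc, ac⟩
  span w hw := by
    obtain ⟨a, ha, qa, b, hb, qb, e⟩ := span w (mem_dList w hw)
    exact ⟨a, b, dList_perp a ha, dList_perp b hb, qa, qb, e⟩
  cardD := by
    have e : {x : V6 | perp2 b6 s6 f6 x} = ↑dList.toFinset := by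
      ext x
      simp only [Set.mem_setOf_eq, List.coe_toFinset]
      exact ⟨mem_dList x, dList_perp x⟩
    have h16 : dList.toFinset.card = 16 := by decide +kernel
    rw [show Nat.card {x // perp2 b6 s6 f6 x} = 16 by
      rw [← h16, ← Set.ncard_coe_finset, ← e, ← Nat.card_coe_set_eq]; rfl]
    rfl

theorem orb_fix {d : V6} (hd : perp2 b6 s6 f6 d) (hq : q6 d = 1) (hB : b6 d w6 = 1) :
    Orb q6 b6 (fun u => perp2 b6 s6 f6 u ∧ b6 u w6 = 0) d6 d ∨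
      Orb q6 b6 (fun u => perp2 b6 s6 f6 u ∧ b6 u w6 = 0) d6 (d + w6) := by
  have hL : ∀ p ∈ gFix, q6 p.1 = 1 ∧ q6 p.2 = 1 ∧ b6 p.1 p.2 = 1 ∧
      (perp2 b6 s6 f6 p.1 ∧ b6 p.1 w6 = 0) ∧ (perp2 b6 s6 f6 p.2 ∧ b6 p.2 w6 = 0) := by
    intro p hp
    obtain ⟨a, b, c, ⟨d1, d2, d3⟩, ⟨e1, e2, e3⟩⟩ := gFix_ok p hp
    exact ⟨a, b, c, ⟨⟨d1, d2⟩, d3⟩, ⟨⟨e1, e2⟩, e3⟩⟩
  exact (reach_fix d (mem_dList d hd) hq hB).imp (orb_of_reach hL) (orb_of_reach hL)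

theorem sing_perp' {w d : V6} (hw : perp2 b6 s6 f6 w) (h0 : w ≠ 0) (hq : q6 w = 0)
    (hd : perp2 b6 s6 f6 d) (hqd : q6 d = 0) (hB : b6 d w = 0) : d = 0 ∨ d = w :=
  sing_perp w (mem_dList w hw) hq h0 d (mem_dList d hd) hqd hB

theorem consts : perp2 b6 s6 f6 w6 ∧ perp2 b6 s6 f6 d6 ∧ perp2 b6 s6 f6 t6 ∧ q6 w6 = 1 ∧
    q6 d6 = 1 ∧ b6 w6 d6 = 1 ∧ q6 t6 = 0 ∧ t6 ≠ 0 ∧ w6 ≠ 0 := by
  unfold perp2; decide +kernel

end Cfsg.Agent.SuzType
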