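import Cfsg.Agent.S0287
import Cfsg.Agent.S0288
import Cfsg.Agent.OrthGen.Index
import Cfsg.Agent.InvolConjTwo.OrthMatrix
import Cfsg.Agent.PGroup.FormGroupType
import Cfsg.Agent.LargeExtra.Large
import Cfsg.Agent.OmegaTwo.Cohomology
import Cfsg.Agent.SuzType.Space
import Cfsg.Agent.ExtraTwo.Frame

/-!
Coordinates for a group of Suzuki sporadic type.
-/

set_option autoImplicit false
set_option maxRecDepth 10000

namespace Cfsg.Agent.SuzType

open Cfsg Cfsg.Agent.ExtraTwo Cfsg.Agent.LargeExtra Cfsg.Agent.TTClass Cfsg.Agent.TTClass.OrthF2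
open Module Matrix

/-- The form as a quadratic form. -/
noncomputable abbrev R6 : QuadraticForm (ZMod 2) V6 := Classical.minusQF 2 (1 : ZMod 2) 1

theorem q6_eq : q6 = ⇑R6 := funext fun v => (Classical.minusQF_apply 2 1 1 v).symm

theorem bNondeg6 : Classical.BNondeg R6 := by
  intro x hx
  refine (OrthModels.qf_minus 2).nd x fun y => ?_
  have e := hx y
  simp only [QuadraticMap.polar, ← congrFun q6_eq] at e
  rw [show q6 (x + y) = q6 x + q6 y + b6 x y from (OrthModels.qf_minus 2).add x y] at e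
  linear_combination e

theorem notExc6 : OrthGen.NotExceptional R6 := Or.inr (by simp)

theorem card_iso6 : Nat.card ↥(isometryGroup (ZMod 2) q6) = 51840 := by
  have := S0288.result (F := ZMod 2) (ZMod.card 2) 3 (by norm_num) 1 1
    (by decide : ∀ z₁ z₂ : ZMod 2, z₁ ^ 2 + 1 * z₁ * z₂ + 1 * z₂ ^ 2 = 0 → z₁ = 0 ∧ z₂ = 0)
  simpa [Finset.prod_range_succ] using this

theorem card_omega6 : Nat.card ↥(Omega (ZMod 2) q6) = 25920 ∧ (Omega (ZMod 2) q6).index = 2 := by
  have gen : ∀ q : V6 → ZMod 2, q = ⇑R6 → Nat.card ↥(isometryGroup (ZMod 2) q) = 51840 →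
      Nat.card ↥(Omega (ZMod 2) q) = 25920 ∧ (Omega (ZMod 2) q).index = 2 := by
    rintro q rfl hc
    have h2 := OrthGen.index_Omega_two R6 bNondeg6 (by simp) notExc6
    have h := Subgroup.card_mul_index (Omega (ZMod 2) ⇑R6)
    rw [h2, hc] at h
    exact ⟨by omega, h2⟩
  exact gen _ q6_eq card_iso6

theorem even_rank6 {t : ↥(isometryGroup (ZMod 2) q6)} (ht : t ∈ Omega (ZMod 2) q6) :
    Even (((t : GL ((Fin 2 ⊕ Fin 2) ⊕ Fin 2) (ZMod 2)) :
      Matrix ((Fin 2 ⊕ Fin 2) ⊕ Fin 2) ((Fin 2 ⊕ Fin 2) ⊕ Fin 2) (ZMod 2)) - 1).rank := by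
  have gen : ∀ q : V6 → ZMod 2, q = ⇑R6 → ∀ t : ↥(isometryGroup (ZMod 2) q),
      t ∈ Omega (ZMod 2) q → Even (((t : GL ((Fin 2 ⊕ Fin 2) ⊕ Fin 2) (ZMod 2)) :
        Matrix ((Fin 2 ⊕ Fin 2) ⊕ Fin 2) ((Fin 2 ⊕ Fin 2) ⊕ Fin 2) (ZMod 2)) - 1).rank := by
    rintro q rfl t ht
    exact (InvolConjTwo.mem_Omega_iff_even R6 bNondeg6 notExc6 t).1 ht
  exact gen _ q6_eq t ht

/-- Involutions of even displacement rank have a singular axis. -/
theorem exists_axis {M : V6 →ₗ[ZMod 2] V6} (hM : ∀ x, M (M x) = x) (hq : ∀ x, q6 (M x) = q6 x)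
    (hne : ∃ x, M x ≠ x) (hev : Even (finrank (ZMod 2) (LinearMap.range (M - LinearMap.id)))) :
    ∃ s, q6 s = 0 ∧ s ≠ 0 ∧ M s = s ∧ ∀ x, b6 x s = 0 → M x = x ∨ M x = x + s := by
  classical
  have hqf : IsQF q6 b6 := OrthModels.qf_minus 2
  have hB : ∀ x y, b6 (M x) (M y) = b6 x y := fun x y => by
    have e := hqf.add x y
    rw [← hq (x + y), map_add, hqf.add, hq, hq] at e
    exact add_left_cancel e
  have hsym : ∀ x y, b6 (M x) y = b6 x (M y) := fun x y => by
    conv_lhs => rw [← hM y, hB]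
  set N := M - LinearMap.id with hN
  have hNa : ∀ x, N x = M x + x := fun x => by
    rw [hN, LinearMap.sub_apply, LinearMap.id_apply, ZModModule.sub_eq_add]
  have hzero : ∀ x y, b6 (N x) (N y) = 0 := by
    intro x y
    have h2 : ∀ a b : ZMod 2, a + b + (b + a) = 0 := by decide
    simp only [hNa, map_add, LinearMap.add_apply, hB, hsym]
    exact h2 _ _
  have hNN : ∀ x, M (N x) = N x := fun x => by rw [hNa, map_add, hM, add_comm]
  set W := LinearMap.range N with hW
  have hdim : finrank (ZMod 2) W + finrank (ZMod 2) W ≤ 6 := by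
    let L : V6 →ₗ[ZMod 2] Dual (ZMod 2) W := W.dualRestrict ∘ₗ b6
    have hBs : Function.Surjective b6 := by
      have hinj : Function.Injective b6 := by
        rw [injective_iff_map_eq_zero]
        exact fun v hv => hqf.nd v fun w => by rw [hv]; rfl
      exact (LinearMap.injective_iff_surjective_of_finrank_eq_finrank
        (by rw [Subspace.dual_finrank_eq])).1 hinj
    have hLs : Function.Surjective L := Subspace.dualRestrict_surjective.comp hBs
    have hker : W ≤ LinearMap.ker L := by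
      rintro _ ⟨x, rfl⟩
      rw [LinearMap.mem_ker]
      ext ⟨_, y, rfl⟩
      exact hzero x y
    have h1 := LinearMap.finrank_range_add_finrank_ker L
    rw [LinearMap.range_eq_top.2 hLs, finrank_top, Subspace.dual_finrank_eq,
      Module.finrank_fintype_fun_eq_card] at h1
    have h2 := Submodule.finrank_mono hker
    simp at h1
    omega
  have hpos : 0 < finrank (ZMod 2) W := by
    rw [Submodule.finrank_eq_zero.not.trans Iff.rfl |> fun h => Nat.pos_iff_ne_zero.trans h]
    intro hb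
    obtain ⟨x, hx⟩ := hne
    refine hx (eq_of_add_eq_zero' ?_)
    rw [← hNa]
    have : N x ∈ W := ⟨x, rfl⟩
    rw [hb, Submodule.mem_bot] at this
    exact this
  have h2 : finrank (ZMod 2) W = 2 := by
    obtain ⟨k, hk⟩ := hev
    omega
  have hcard : Nat.card W = 4 := by
    rw [Module.natCard_eq_pow_finrank (K := ZMod 2) (V := W), h2, Nat.card_zmod]
    norm_num
  -- a singular vector of `W`
  have hex : ∃ s ∈ W, q6 s = 0 ∧ s ≠ 0 := by
    by_contra hcon
    push Not at hcon
    have hq1 : ∀ a : W, a ≠ 0 → q6 a = 1 := fun a ha =>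
      (z2 _).resolve_left fun e => ha (Subtype.ext (hcon a a.2 e))
    have hsub : ∀ a b : W, a ≠ 0 → b ≠ 0 → a = b := by
      intro a b ha hb
      by_contra hab
      have hne0 : a + b ≠ 0 := fun e => hab (eq_of_add_eq_zero' e)
      have e := hq1 _ hne0
      obtain ⟨x, hx⟩ := a.2
      obtain ⟨y, hy⟩ := b.2
      rw [Submodule.coe_add, hqf.add, hq1 a ha, hq1 b hb, ← hx, ← hy, hzero] at e
      exact absurd e (by decide)
    have hle : Nat.card W ≤ 2 := by
      let F : W → Bool := fun a => decide (a = 0)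
      refine le_trans (Nat.card_le_card_of_injective F fun a b e => ?_) (by simp)
      by_cases ha : a = 0 <;> by_cases hb : b = 0
      · rw [ha, hb]
      · simp [F, ha, hb] at e
      · simp [F, ha, hb] at e
      · exact hsub a b ha hb
    omega
  obtain ⟨s, ⟨a, rfl⟩, hqs, hs0⟩ := hex
  refine ⟨N a, hqs, hs0, hNN a, fun x hx => ?_⟩
  suffices N x = 0 ∨ N x = N a by
    rcases this with e | e
    · exact Or.inl (eq_of_add_eq_zero' (by rw [← hNa, e]))
    · refine Or.inr ?_
      rw [← e, hNa, add_comm (M x) x, add_left_self]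
  by_contra hcon
  push Not at hcon
  obtain ⟨hy0, hya⟩ := hcon
  let F : Fin 4 → W := ![0, ⟨N a, a, rfl⟩, ⟨N x, x, rfl⟩, ⟨N (a + x), a + x, rfl⟩]
  have hF : Function.Injective F := by
    intro i j e
    have e' : (F i : V6) = F j := congrArg Subtype.val e
    have k1 : N (a + x) ≠ 0 := fun r => hya (eq_of_add_eq_zero' (by rw [← map_add, add_comm]; exact r))
    have k2 : N (a + x) ≠ N a := fun r => hy0 (by rwa [map_add, add_eq_left] at r)
    have k3 : N (a + x) ≠ N x := fun r => hs0 (by rwa [map_add, add_eq_right] at r)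
    fin_cases i <;> fin_cases j <;> first
      | rfl
      | exact absurd e' hs0 | exact absurd e'.symm hs0
      | exact absurd e' hy0 | exact absurd e'.symm hy0
      | exact absurd e' hya | exact absurd e'.symm hya
      | exact absurd e' k1 | exact absurd e'.symm k1
      | exact absurd e' k2 | exact absurd e'.symm k2
      | exact absurd e' k3 | exact absurd e'.symm k3
  have hFs : Function.Surjective F :=
    (Nat.bijective_iff_injective_and_card F).2 ⟨hF, by rw [hcard, Nat.card_fin]⟩ |>.2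
  refine hs0 (hqf.nd _ fun u => ?_)
  obtain ⟨i, hi⟩ := hFs ⟨N u, u, rfl⟩
  have hi' : (F i : V6) = N u := congrArg Subtype.val hi
  have haa : b6 a (N a) = 0 := by
    have e : q6 (M a) = q6 (a + N a) := by rw [hNa, add_comm (M a) a, add_left_self]
    rw [hq, hqf.add, hqs, add_zero] at e
    exact left_eq_add.mp e
  have hax : b6 a (N x) = 0 := by
    have e : b6 x (N a) = b6 a (N x) := by
      simp only [hNa, map_add]
      rw [hqf.symm x (M a), hsym, hqf.symm x a]
    rw [← e, hx]
  have hau : b6 a (N u) = 0 := by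
    rw [← hi']
    fin_cases i
    · exact map_zero (b6 a)
    · exact haa
    · exact hax
    · show b6 a (N (a + x)) = 0
      rw [map_add, map_add, haa, hax, add_zero]
  rw [hNa] at hau ⊢
  rw [map_add] at hau
  rw [map_add, LinearMap.add_apply, hsym]
  exact hau

variable {G : Type*} [Group G] [Finite G]

open Cfsg.Agent.FormGroup in
/-- The homomorphism to the isometries of the form of an identification of `Q`. -/
theorem exists_hom {z : G} {Q : Subgroup G} (h : CentralInvolution Q z)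
    (hcent : Subgroup.centralizer (Q : Set G) ≤ Subgroup.zpowers z)
    (hnorm : Subgroup.centralizer ({z} : Set G) ≤ Subgroup.normalizer (Q : Set G))
    {ι : Type} [Fintype ι] [DecidableEq ι] [Nonempty ι] {M : Matrix ι ι (ZMod 2)} (hM : Nondeg M)
    (q : (ι → ZMod 2) → ZMod 2) (hq : ∀ v, bil M v v = q v) (ε : ↥Q ≃* EB M) :
    ∃ θ : ↥(Subgroup.centralizer ({z} : Set G)) →* ↥(isometryGroup (ZMod 2) q),
      θ.ker = Q.subgroupOf (Subgroup.centralizer ({z} : Set G)) ∧
      ∀ (c : ↥(Subgroup.centralizer ({z} : Set G))) (a : G) (ha : a ∈ Q)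
        (hca : (c : G) * a * (c : G)⁻¹ ∈ Q),
        ((θ c : GL ι (ZMod 2)) : Matrix ι ι (ZMod 2)) *ᵥ (ε ⟨a, ha⟩).v =
          (ε ⟨(c : G) * a * (c : G)⁻¹, hca⟩).v := by
  set C := Subgroup.centralizer ({z} : Set G)
  let cj : C →* MulAut Q := (MonoidHom.mk' (fun c : C =>
    ({ toFun := fun a => ⟨(c : G) * a * (c : G)⁻¹, (Subgroup.mem_normalizer_iff.1 (hnorm c.2) a).1 a.2⟩
       invFun := fun a => ⟨(c : G)⁻¹ * a * c, by
        have := (Subgroup.mem_normalizer_iff.1 (inv_mem (hnorm c.2)) a).1 a.2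
        simpa using this⟩
       left_inv := fun a => Subtype.ext (by simp [mul_assoc])
       right_inv := fun a => Subtype.ext (by simp [mul_assoc])
       map_mul' := fun a b => Subtype.ext (by simp [mul_assoc]) } : MulAut Q))
    fun c d => MulEquiv.ext fun a => Subtype.ext (by simp [mul_assoc]))
  let θ := (isoHom hM q hq).comp ((MulAut.congr ε).toMonoidHom.comp cj)
  refine ⟨θ, ?_, fun c a ha hca => ?_⟩
  · ext c
    rw [MonoidHom.mem_ker, Subgroup.mem_subgroupOf]
    show isoHom hM q hq (MulAut.congr ε (cj c)) = 1 ↔ _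
    rw [← MonoidHom.mem_ker, isoHom_ker hM q hq]
    constructor
    · rintro ⟨r, hr⟩
      set r' : Q := ε.symm r with hr'
      have key : ∀ a : Q, (r' : G) * a * (r' : G)⁻¹ = (c : G) * a * (c : G)⁻¹ := by
        intro a
        have e := congrArg ε.symm (DFunLike.congr_fun hr (ε a))
        simp [MulAut.congr, cj] at e
        exact congrArg Subtype.val e
      have hm : (r' : G)⁻¹ * c ∈ Subgroup.centralizer (Q : Set G) := by
        intro a ha
        calc a * ((r' : G)⁻¹ * c) = (r' : G)⁻¹ * ((r' : G) * a * (r' : G)⁻¹) * c := by group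
          _ = (r' : G)⁻¹ * c * a := by rw [key ⟨a, ha⟩]; group
      rcases h.mem_zpowers_iff.1 (hcent hm) with e | e
      · exact (inv_mul_eq_one.1 e) ▸ r'.2
      · rw [inv_mul_eq_iff_eq_mul.1 e]
        exact mul_mem r'.2 h.mem
    · intro hc
      refine ⟨ε ⟨c, hc⟩, MulEquiv.ext fun x => ?_⟩
      obtain ⟨a, rfl⟩ := ε.surjective x
      show ε ⟨c, hc⟩ * ε a * (ε ⟨c, hc⟩)⁻¹ = _
      simp [MulAut.congr, cj]
      rw [← map_inv, ← map_mul, ← map_mul]
      rfl
  · have := toGLHom_mulVec hM (MulAut.congr ε (cj c)) (ε ⟨a, ha⟩)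
    refine this.trans ?_
    simp [MulAut.congr, cj]

/-- The setup of a group of Suzuki sporadic type. -/
theorem exists_frame (z : G) (hz : orderOf z = 2)
    (Q : Subgroup (Subgroup.centralizer ({z} : Set G))) [Q.Normal]
    (hF : Cfsg.generalizedFittingSubgroup (Subgroup.centralizer ({z} : Set G)) = Q)
    (hQ : Cfsg.IsExtraspecial 2 Q) (hcard : Nat.card Q = 2 ^ 7)
    (e : (Subgroup.centralizer ({z} : Set G)) ⧸ Q ≃* Cfsg.Omega (ZMod 2) q6) :
    ∃ (φ : G → V6)
      (h : Frame z (Q.map (Subgroup.centralizer ({z} : Set G)).subtype) q6 b6 φ),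
      ∀ c, c * z = z * c → c ∉ Q.map (Subgroup.centralizer ({z} : Set G)).subtype →
        c * c ∈ Q.map (Subgroup.centralizer ({z} : Set G)).subtype →
        ∃ s, q6 s = 0 ∧ s ≠ 0 ∧ h.act c s = s ∧
          ∀ x, b6 x s = 0 → h.act c x = x ∨ h.act c x = x + s := by
  classical
  haveI : Fact (Nat.Prime 2) := ⟨Nat.prime_two⟩
  set Q' := Q.map (Subgroup.centralizer ({z} : Set G)).subtype with hQ'
  have hQ'e : IsExtraspecial 2 Q' :=
    isExtraspecial_map_equiv hQ (Q.equivMapOfInjective (Subgroup.centralizer ({z} : Set G)).subtype (Subgroup.subtype_injective _))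
  have hcard' : Nat.card Q' = 2 ^ 7 := by
    rw [Subgroup.card_map_of_injective (Subgroup.subtype_injective _), hcard]
  obtain ⟨hci, hcent, hnorm⟩ :=
    centralInvolution_of_genFitting hz (Q := Q') (by rw [hF]) hQ'e
  have hsub : Q'.subgroupOf (Subgroup.centralizer ({z} : Set G)) = Q := Subgroup.comap_map_eq_self_of_injective (Subgroup.subtype_injective _) Q
  have hidx : Nat.card ((Subgroup.centralizer ({z} : Set G)) ⧸ Q) = 25920 := by rw [Nat.card_congr e.toEquiv, card_omega6.1]
  have hrange : ∀ {X : Type} [Group X] [Finite X] (θ : (Subgroup.centralizer ({z} : Set G)) →* X), θ.ker = Q'.subgroupOf (Subgroup.centralizer ({z} : Set G)) →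
      Nat.card θ.range = 25920 := by
    intro X _ _ θ hk
    rw [← Nat.card_congr (QuotientGroup.quotientKerEquivRange θ).toEquiv,
      Nat.card_congr (QuotientGroup.quotientMulEquivOfEq (hk.trans hsub)).toEquiv, hidx]
  have hminus : ¬ ∃ A : Subgroup Q', IsElementaryAbelian 2 A ∧ Nat.card A = 2 ^ (2 + 1 + 1) := by
    intro hA
    obtain ⟨ε⟩ := FormGroup.equiv_plus hQ'e (n := 3) (by norm_num) hcard' hA
    obtain ⟨θ, hk, -⟩ := exists_hom hci hcent hnorm (FormGroup.nondeg_plus 3)
      (Cfsg.quadFormPlus 3 (ZMod 2)) (FormGroup.diag_plus 3) ε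
    have h1 := hrange θ hk
    have h2 := Subgroup.card_subgroup_dvd_card θ.range
    rw [h1, S0287.result (ZMod.card 2) 3 (by norm_num)] at h2
    simp [Finset.prod_range_succ] at h2
  obtain ⟨ε⟩ := FormGroup.equiv_minus hQ'e (m := 2) hcard' hminus
  obtain ⟨θ, hk, hθ⟩ := exists_hom hci hcent hnorm (FormGroup.nondeg_minus 2) q6
    (FormGroup.diag_minus 2) ε
  have hθrange : θ.range = Omega (ZMod 2) q6 := by
    have hi : θ.range.index = 2 := by
      have := Subgroup.card_mul_index θ.range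
      rw [hrange θ hk, card_iso6] at this
      omega
    have hle : Omega (ZMod 2) q6 ≤ θ.range := by
      show commutator _ ≤ _
      rw [commutator_def, Subgroup.commutator_le]
      intro a _ b _
      simp only [commutatorElement_def, Subgroup.mul_mem_iff_of_index_two hi, inv_mem_iff]
      tauto
    exact (Subgroup.eq_of_le_of_card_ge hle (by rw [hrange θ hk, card_omega6.1])).symm
  let φ : G → V6 := fun a => if ha : a ∈ Q' then (ε ⟨a, ha⟩).v else 0
  have hφ : ∀ a (ha : a ∈ Q'), φ a = (ε ⟨a, ha⟩).v := fun a ha => dif_pos ha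
  have hqf : IsQF q6 b6 := OrthModels.qf_minus 2
  have hmv : ∀ c (hc : c ∈ (Subgroup.centralizer ({z} : Set G))), ∀ a ∈ Q', φ (c * a * c⁻¹) =
      ((θ ⟨c, hc⟩ : GL ((Fin 2 ⊕ Fin 2) ⊕ Fin 2) (ZMod 2)) :
        Matrix ((Fin 2 ⊕ Fin 2) ⊕ Fin 2) ((Fin 2 ⊕ Fin 2) ⊕ Fin 2) (ZMod 2)) *ᵥ φ a := by
    intro c hc a ha
    have hca := (Subgroup.mem_normalizer_iff.1 (hnorm hc) a).1 ha
    rw [hφ _ hca, hφ a ha]
    exact (hθ ⟨c, hc⟩ a ha hca).symm
  have hFr : Frame z Q' q6 b6 φ :=
    { ci := hci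
      cent := hcent
      norm := hnorm
      two_le := by simp
      even_card := by simp
      cardQ := by rw [hcard']; simp
      qf := hqf
      map_mul := fun a ha b hb => by
        rw [hφ a ha, hφ b hb, hφ _ (mul_mem ha hb), ← FormGroup.mul_v, ← map_mul]
        rfl
      map_ker := fun a ha h0 => by
        rw [hφ a ha] at h0
        refine hci.eq_of_mem (x := (⟨a, ha⟩ : Q')) (Subgroup.mem_center_iff.2 fun y => ε.injective ?_)
        rw [map_mul, map_mul]
        exact Subgroup.mem_center_iff.1 ((FormGroup.mem_center_iff_v (FormGroup.nondeg_minus 2)).2 h0) _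
      map_surj := fun v => by
        refine ⟨(ε.symm ⟨v, 0⟩ : Q'), (ε.symm ⟨v, 0⟩).2, ?_⟩
        rw [hφ _ (ε.symm ⟨v, 0⟩).2]
        simp
      map_sq := fun a ha => by
        rw [hφ a ha]
        show _ ↔ Cfsg.quadFormMinus 2 (ZMod 2) 1 1 _ = 0
        rw [← FormGroup.diag_minus, ← FormGroup.sq_eq_one_iff, pow_two, ← map_mul,
          map_eq_one_iff ε ε.injective]
        exact ⟨fun e => Subtype.ext e, fun e => congrArg Subtype.val e⟩
      map_comm := fun a ha b hb => by
        rw [hφ a ha, hφ b hb]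
        have hiff : a * b = b * a ↔ ε ⟨a, ha⟩ * ε ⟨b, hb⟩ = ε ⟨b, hb⟩ * ε ⟨a, ha⟩ := by
          rw [← map_mul, ← map_mul, ε.injective.eq_iff, Subtype.ext_iff]
          rfl
        rw [hiff]
        generalize ε ⟨a, ha⟩ = x
        generalize ε ⟨b, hb⟩ = y
        have hb2 : b6 x.v y.v = FormGroup.bil (FormGroup.minusMat 2) x.v y.v +
            FormGroup.bil (FormGroup.minusMat 2) y.v x.v := by
          have e := (OrthModels.qf_minus 2).add x.v y.v
          rw [← FormGroup.diag_minus, ← FormGroup.diag_minus, ← FormGroup.diag_minus,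
            FormGroup.bil_add_left, FormGroup.bil_add_right, FormGroup.bil_add_right] at e
          linear_combination -e
        rw [hb2]
        constructor
        · intro e'
          have := congrArg FormGroup.EB.a e'
          rw [FormGroup.mul_a, FormGroup.mul_a, add_comm y.a] at this
          rw [add_left_cancel this]
          exact CharTwo.add_self_eq_zero _
        · intro e'
          refine FormGroup.ext_pair (add_comm _ _) ?_
          rw [FormGroup.mul_a, FormGroup.mul_a, add_comm y.a, CharTwo.add_eq_zero.1 e']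
      lift := fun u v hu hv huv => by
        obtain ⟨⟨c, hc⟩, hce⟩ : Cfsg.Agent.OmegaTwo.tr q6 b6 u * Cfsg.Agent.OmegaTwo.tr q6 b6 v ∈ θ.range := by
          rw [hθrange]; exact Cfsg.Agent.OmegaTwo.pair_mem hqf hu hv huv
        refine ⟨c, Subgroup.mem_centralizer_singleton_iff.1 hc, fun a ha => ?_⟩
        have he := Cfsg.Agent.OmegaTwo.act_pr hqf hu hv huv (φ a)
        rw [Cfsg.Agent.OmegaTwo.coe_pr hqf hu hv huv, ← hce, OrthModels.rho_apply] at he
        rw [hmv c hc a ha]
        exact he }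
  refine ⟨φ, hFr, fun c hc hcQ hcc => ?_⟩
  have hcC : c ∈ (Subgroup.centralizer ({z} : Set G)) := Subgroup.mem_centralizer_singleton_iff.2 hc
  set t := θ ⟨c, hcC⟩ with ht
  set M := Matrix.mulVecLin ((t : GL ((Fin 2 ⊕ Fin 2) ⊕ Fin 2) (ZMod 2)) :
    Matrix ((Fin 2 ⊕ Fin 2) ⊕ Fin 2) ((Fin 2 ⊕ Fin 2) ⊕ Fin 2) (ZMod 2)) with hM
  have hact : ∀ x, hFr.act c x = M x := fun x => by
    obtain ⟨a, ha, rfl⟩ := hFr.map_surj x
    rw [hFr.act_map hc ha, hmv c hcC a ha]
    rfl
  have hcc' : c * c * z = z * (c * c) := hci.comm _ hcc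
  obtain ⟨s, h1, h2, h3, h4⟩ := exists_axis (M := M)
    (fun x => by rw [← hact, ← hact, ← hFr.act_mul hc hc, hFr.act_of_mem hcc])
    (fun x => by rw [← hact, hFr.act_q hc])
    (by
      by_contra hall
      push Not at hall
      exact hcQ (hFr.mem_of_act hc fun x => by rw [hact, hall]))
    (by
      have hev := even_rank6 (t := t) (hθrange ▸ ⟨⟨c, hcC⟩, rfl⟩)
      have e : M - LinearMap.id = Matrix.mulVecLin (((t : GL ((Fin 2 ⊕ Fin 2) ⊕ Fin 2) (ZMod 2)) :
          Matrix ((Fin 2 ⊕ Fin 2) ⊕ Fin 2) ((Fin 2 ⊕ Fin 2) ⊕ Fin 2) (ZMod 2)) - 1) :=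
        LinearMap.ext fun x => by
          simp [hM, Matrix.sub_mulVec]
      rw [e]
      exact hev)
  exact ⟨s, h1, h2, by rw [hact, h3], fun x hx => by simpa only [hact] using h4 x hx⟩

end Cfsg.Agent.SuzType
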