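import Cfsg.Agent.ExtraTwo.Pairing
import Cfsg.Agent.SuzType.Space

/-!
The two classes of involutions of a group of Suzuki sporadic type.
-/

set_option autoImplicit false
set_option maxRecDepth 100000
set_option synthInstance.maxSize 4000
set_option maxHeartbeats 800000

namespace Cfsg.Agent.SuzType

open Cfsg.Agent.ExtraTwo Cfsg.Agent.LargeExtra Cfsg.Agent.TTClass.OrthF2

/-- A basis vector of the orthogonal of the pair. -/
def e6 : V6 := mk6 0 1 0 0 0 0

theorem perp_data : b6 s6 s6 = 0 ∧ b6 s6 w6 = 0 ∧ b6 s6 d6 = 0 ∧ b6 e6 s6 = 0 ∧ b6 e6 w6 = 0 ∧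
    b6 e6 d6 = 0 ∧ b6 t6 s6 = 0 ∧ b6 t6 w6 = 0 ∧ b6 t6 d6 = 0 := by decide +kernel

theorem basis6 (x : V6) : x = x (.inl (.inl 0)) • s6 + x (.inl (.inl 1)) • e6 +
    x (.inl (.inr 0)) • f6 + x (.inl (.inr 1)) • t6 + x (.inr 0) • w6 + x (.inr 1) • d6 := by
  funext i
  rcases i with (i | i) | i <;> fin_cases i <;> simp [s6, e6, f6, t6, w6, d6, mk6]

theorem coord_w : ∀ x, x = w6 ∨ x = w6 + s6 → ∀ y, y = w6 ∨ y = w6 + s6 →
    x (.inl (.inl 0)) = y (.inl (.inl 0)) → x = y := by decide +kernel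

theorem coord_d : ∀ x, q6 x = 1 → b6 x s6 = 0 → b6 x e6 = 0 → b6 x t6 = 0 → b6 x w6 = 1 →
    x = x (.inl (.inl 0)) • s6 + x (.inr 0) • w6 + d6 := by decide +kernel

theorem coord_f : ∀ x, q6 x = 0 → b6 x s6 = 1 → b6 x e6 = 0 → b6 x t6 = 0 → ∀ y, q6 y = 0 →
    b6 y s6 = 1 → b6 y e6 = 0 → b6 y t6 = 0 → b6 x w6 = b6 y w6 → b6 x d6 = b6 y d6 → x = y := by
  decide +kernel

theorem card_fixed : Nat.card {v : V6 // b6 v s6 = 0 ∧ b6 v w6 = 0 ∧ b6 v d6 = 0} = 8 := by
  rw [Nat.card_eq_fintype_card]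
  decide +kernel

variable {G : Type*} [Group G] [Finite G]

variable {z : G} {Q : Subgroup G} {φ : G → V6} (h : Frame z Q q6 b6 φ)
include h

omit [Finite G] in
theorem exists_swap_conj {a : G} (ha : a ∈ Q) (h1 : a ≠ 1) (hz : a ≠ z) :
    ∃ r ∈ Q, r * a * r⁻¹ = a * z ∧ r * (a * z) * r⁻¹ = a := by
  obtain ⟨r, hr, hra⟩ := h.ci.exists_swap ha h1 hz
  refine ⟨r, hr, hra, ?_⟩
  have hrz := h.ci.comm r hr
  calc r * (a * z) * r⁻¹ = (r * a * r⁻¹) * (r * z * r⁻¹) := by group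
    _ = a := by rw [hra, hrz, mul_inv_cancel_right, mul_assoc, h.ci.sq, mul_one]

omit [Finite G] in
theorem map_ne_zero {a : G} (ha : a ∈ Q) (h1 : a ≠ 1) (hz : a ≠ z) : φ a ≠ 0 :=
  fun e => (h.map_ker a ha e).elim h1 hz

/-- Some conjugate of `z` has image `s6`. -/
theorem exists_at (hnwc : ∃ g : G, g * z * g⁻¹ ∈ Q ∧ g * z * g⁻¹ ≠ z) :
    ∃ g s, At z Q q6 b6 φ s6 f6 g s := by
  obtain ⟨k, hk, hkz⟩ := hnwc
  have h1 : k * z * k⁻¹ ≠ 1 := fun e => h.ci.ne_one (conj_eq_one_iff.1 e)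
  have h2 : k * z * k⁻¹ * (k * z * k⁻¹) = 1 := by
    rw [show k * z * k⁻¹ * (k * z * k⁻¹) = k * (z * z) * k⁻¹ by group, h.ci.sq]; group
  obtain ⟨c, hc, hcs, -⟩ := h.lift_orb
    (orb_symm (model.trans (φ (k * z * k⁻¹)) ((h.map_sq _ hk).1 h2) (map_ne_zero h hk h1 hkz)))
  refine ⟨c * k, c * (k * z * k⁻¹) * c⁻¹,
    { fr := h, md := model, eq := by group, mem := h.conj_memQ hc hk, img := ?_ }⟩
  rw [← h.act_map hc hk, hcs]

/-- Lying in the group of a conjugate of `z` in `Q`. -/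
def Near (z : G) (Q : Subgroup G) (x : G) : Prop :=
  ∃ k, k * z * k⁻¹ ∈ Q ∧ k * z * k⁻¹ ≠ z ∧ x ≠ k * z * k⁻¹ ∧ k⁻¹ * x * k ∈ Q

omit [Finite G] in
theorem near_conj {x c : G} (hc : c * z = z * c) (hx : Near z Q x) : Near z Q (c * x * c⁻¹) := by
  obtain ⟨k, hk, hkz, hxk, hkx⟩ := hx
  have e : c * k * z * (c * k)⁻¹ = c * (k * z * k⁻¹) * c⁻¹ := by group
  refine ⟨c * k, e ▸ h.conj_memQ hc hk, fun r => hkz ?_, fun r => hxk ?_, ?_⟩
  · calc k * z * k⁻¹ = c⁻¹ * (c * k * z * (c * k)⁻¹) * c := by group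
      _ = c⁻¹ * (z * c) := by rw [r]; group
      _ = z := by rw [← hc]; group
  · calc x = c⁻¹ * (c * x * c⁻¹) * c := by group
      _ = _ := by rw [r]; group
  · convert hkx using 1
    group

variable {g s : G} (hA : At z Q q6 b6 φ s6 f6 g s)
include hA

/-- The involutions of `Q` other than `z` are conjugate to `z`. -/
theorem exists_conj_of_mem {a : G} (ha : a ∈ Q) (h2 : a * a = 1) (h1 : a ≠ 1) (hz : a ≠ z) :
    ∃ k, k * z * k⁻¹ = a := by
  obtain ⟨c, hc, hcs, -⟩ := h.lift_orb (model.trans _ ((h.map_sq a ha).1 h2) (map_ne_zero h ha h1 hz))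
  have e : φ (c * s * c⁻¹) = φ a := by rw [← h.act_map hc hA.mem, hA.img, hcs]
  rcases h.eq_or_of_map_eq (h.conj_memQ hc hA.mem) ha e with e' | e'
  · exact ⟨c * g, by rw [← e', hA.eq]; group⟩
  · obtain ⟨r, -, -, hr⟩ := exists_swap_conj h ha h1 hz
    exact ⟨r * c * g, by
      calc r * c * g * z * (r * c * g)⁻¹ = r * (c * (g * z * g⁻¹) * c⁻¹) * r⁻¹ := by group
        _ = a := by rw [← hA.eq, e', hr]⟩

/-- Near involutions are conjugate to `z`. -/
theorem isConj_of_near {x : G} (hx2 : x * x = 1) (hx1 : x ≠ 1) (hn : Near z Q x) : IsConj z x := by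
  obtain ⟨k, -, -, hxk, hkx⟩ := hn
  obtain ⟨j, hj⟩ := exists_conj_of_mem h hA hkx
    (by rw [show k⁻¹ * x * k * (k⁻¹ * x * k) = k⁻¹ * (x * x) * k by group, hx2]; group)
    (fun e => hx1 (by
      calc x = k * (k⁻¹ * x * k) * k⁻¹ := by group
        _ = 1 := by rw [e]; group))
    (fun e => hxk (by
      calc x = k * (k⁻¹ * x * k) * k⁻¹ := by group
        _ = _ := by rw [e]))
  exact isConj_iff.2 ⟨k * j, by
    calc k * j * z * (k * j)⁻¹ = k * (j * z * j⁻¹) * k⁻¹ := by group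
      _ = x := by rw [hj]; group⟩

/-- The condition for being an involution in the coset of `y`. -/
theorem sq_outer {y v : G} (hy : hA.HasW y w6) (hv : v ∈ Q) (hvs : v * s = s * v)
    (hB : b6 (φ v) w6 = 1) : y * v * (y * v) = z * (v * v) := by
  have hyy : y * y = s := (hA.sq_S hy.1.2).resolve_left fun e => by
    have := (hA.sq_iff hy).1 e
    rw [consts.2.2.2.1] at this
    exact one_ne_zero this
  have hvy : v * y = s * z * y * v :=
    mul_inv_eq_iff_eq_mul.1 (hA.conj_of_not_perp hv hvs hy hB)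
  have hys := hA.comm_s hy.1.2
  calc y * v * (y * v) = y * (v * y) * v := by group
    _ = (y * s) * z * y * (v * v) := by rw [hvy]; group
    _ = s * (y * z) * y * (v * v) := by rw [hys]; group
    _ = s * z * (y * y) * (v * v) := by rw [hy.1.1]; group
    _ = (s * s) * z * (v * v) := by rw [hyy, mul_assoc s z s, ← hA.s_comm_z]; group
    _ = z * (v * v) := by rw [hA.sq_s, one_mul]

variable {y v0 : G} (hy : hA.HasW y w6) (hv0 : v0 ∈ Q) (hv0d : φ v0 = d6)
include hy hv0 hv0d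

/-- Involutions `y v` with the standard quotient part are conjugate to the base one. -/
theorem outer_normal {v : G} (hv : v ∈ Q) (hvs : v * s = s * v) (hq : q6 (φ v) = 1)
    (hB : b6 (φ v) w6 = 1) : ∃ c, c * z = z * c ∧ c * (y * v) * c⁻¹ = y * v0 := by
  obtain ⟨hpw, hpd, -, hqw, hqd, hwd, -, -, -⟩ := consts
  have hqf := model.hp.qf
  obtain ⟨d, hd, hdec⟩ := model.hp.decomp (φ v)
  rw [(hA.img_comm hv).1 hvs, zero_smul, add_zero] at hdec
  have hqd' : q6 d = 1 := by rw [← hq, hdec, model.hp.q_smul_s_add _ hd.1]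
  have hBd : b6 d w6 = 1 := by
    have e : b6 s6 w6 = 0 := perp_data.2.1
    rw [← hB, hdec, map_add, LinearMap.add_apply, map_smul, LinearMap.smul_apply, e]
    simp
  -- move the quotient part
  obtain ⟨b, hb⟩ : ∃ b : ZMod 2, Orb q6 b6 (fun u => perp2 b6 s6 f6 u ∧ b6 u w6 = 0) d6 (d + b • w6) := by
    rcases orb_fix hd hqd' hBd with e | e
    · exact ⟨0, by simpa using e⟩
    · exact ⟨1, by simpa using e⟩
  obtain ⟨c, hc, hcs, hc0, hcf, hcd, hfix⟩ := hA.exists_move (fun u hu => hu.1) (orb_symm hb)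
  have hcw : h.act c w6 = w6 := hfix w6 fun u hu => by rw [hqf.symm]; exact hu.2
  have hcy := hA.hasW_conj hc hcs hc0 (by rw [hcw]; exact hpw) hy
  rw [hcw] at hcy
  obtain ⟨k, hk, hkeq⟩ := hA.hasW_congr hy hcy
  have hkQ : k ∈ Q := by
    rcases hk with rfl | rfl | rfl | rfl
    · exact one_mem _
    · exact h.ci.mem
    · exact hA.mem
    · exact mul_mem hA.mem h.ci.mem
  set v1 := k * (c * v * c⁻¹) with hv1
  have hv1Q : v1 ∈ Q := mul_mem hkQ (h.conj_memQ hc hv)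
  have hx1 : c * (y * v) * c⁻¹ = y * v1 := by
    calc c * (y * v) * c⁻¹ = (c * y * c⁻¹) * (c * v * c⁻¹) := by group
      _ = y * v1 := by rw [hkeq, hv1, mul_assoc]
  obtain ⟨a, ha⟩ : ∃ a : ZMod 2, φ v1 = a • s6 + b • w6 + d6 := by
    have hkimg : φ k = 0 ∨ φ k = s6 := hA.inter_img hkQ (hA.X_memS hk)
    have e : φ (c * v * c⁻¹) = b6 (φ v) f6 • s6 + b • w6 + d6 := by
      rw [← h.act_map hc hv]
      conv_lhs => rw [hdec]
      rw [show b6 (φ v) f6 • s6 + d = b6 (φ v) f6 • s6 + b • w6 + (d + b • w6) by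
        rw [add_assoc _ (b • w6), add_comm d (b • w6), add_left_self]]
      rw [h.act_add hc, h.act_add hc, h.act_smul hc, h.act_smul hc, hc0, hcw, hcd]
    rw [hv1, h.map_mul _ hkQ _ (h.conj_memQ hc hv), e]
    rcases hkimg with r | r <;> rw [r]
    · exact ⟨_, zero_add _⟩
    · exact ⟨1 + b6 (φ v) f6, by rw [add_smul, one_smul]; abel⟩
  -- remove the part in the span of `s6` and `w6`
  obtain ⟨e, he, hed⟩ := h.map_surj (b • f6 + (a + b) • d6)
  have hez := h.ci.comm e he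
  set v2 := y⁻¹ * e * y * e⁻¹ * (e * v1 * e⁻¹) with hv2
  have hyi : y⁻¹ * z = z * y⁻¹ := (Commute.inv_left hy.1.1).eq
  have hm1 : y⁻¹ * e * y ∈ Q := by
    have := h.conj_memQ hyi he
    rwa [inv_inv] at this
  have hv2Q : v2 ∈ Q := mul_mem (mul_mem hm1 (inv_mem he)) (h.conj_memQ hez hv1Q)
  have hx2 : e * (y * v1) * e⁻¹ = y * v2 := by rw [hv2]; group
  have hv2d : φ v2 = d6 := by
    have e1 : φ (e * v1 * e⁻¹) = φ v1 := by rw [← h.act_map hez hv1Q, h.act_of_mem he]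
    have e2 : φ (y⁻¹ * e * y) = rho q6 b6 s6 w6 (φ e) := by
      have hh : h.act y (φ (y⁻¹ * e * y)) = φ e := by
        rw [h.act_map hy.1.1 hm1]; congr 1; group
      rw [← hh, hy.2.2, model.hp.rho_mul hpw hpw, add_self', model.hp.rho_zero]
    rw [hv2, h.map_mul _ (mul_mem hm1 (inv_mem he)) _ (h.conj_memQ hez hv1Q),
      h.map_mul _ hm1 _ (inv_mem he), h.map_inv he, e1, e2, ha, rho, hed]
    have r1 : b6 (b • f6 + (a + b) • d6) s6 = b := by
      simp [model.hp.bfs, hpd.1]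
    have r2 : b6 (b • f6 + (a + b) • d6) w6 = a + b := by
      have e3 : b6 f6 w6 = 0 := (hqf.symm _ _).trans hpw.2
      simp [e3, hqf.symm d6 w6, hwd]
    rw [r1, r2, hqw, mul_one, show a + b + b = a by rw [add_assoc, CharTwo.add_self_eq_zero, add_zero]]
    generalize b • f6 + (a + b) • d6 = p
    calc p + b • w6 + a • s6 + p + (a • s6 + b • w6 + d6)
        = (p + p) + (b • w6 + b • w6) + (a • s6 + a • s6) + d6 := by abel
      _ = d6 := by rw [add_self', add_self']; simp [← add_smul, CharTwo.add_self_eq_zero]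
  rcases h.eq_or_of_map_eq hv2Q hv0 (hv2d.trans hv0d.symm) with r | r
  · refine ⟨e * c, by rw [mul_assoc, hc, ← mul_assoc, hez, mul_assoc], ?_⟩
    calc e * c * (y * v) * (e * c)⁻¹ = e * (c * (y * v) * c⁻¹) * e⁻¹ := by group
      _ = y * v0 := by rw [hx1, hx2, r]
  · obtain ⟨p, hp, hpw'⟩ := h.map_surj w6
    have hpz := h.ci.comm p hp
    have hps : p * s = s * p := (hA.img_comm hp).2 (by rw [hpw']; exact hpw.1)
    have hpy : p * y = y * p := hA.commute_of_perp hp hps hy (by rw [hpw', hqf.self])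
    have hpv : p * v0 * p⁻¹ = v0 * z := h.conj_eq_mul_z hp hv0 (by rw [hpw', hv0d, hwd])
    refine ⟨p * (e * c), ?_, ?_⟩
    · rw [mul_assoc, mul_assoc e, hc, ← mul_assoc e, hez, mul_assoc z, ← mul_assoc, hpz, mul_assoc]
    · calc p * (e * c) * (y * v) * (p * (e * c))⁻¹
            = p * (e * (c * (y * v) * c⁻¹) * e⁻¹) * p⁻¹ := by group
        _ = (p * y * p⁻¹) * (p * v0 * p⁻¹) * (p * z * p⁻¹) := by rw [hx1, hx2, r]; group
        _ = y * v0 := by
          rw [hpy, mul_inv_cancel_right, hpv, hpz, mul_inv_cancel_right, mul_assoc, mul_assoc, h.ci.sq,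
            mul_one]

/-- An involution outside `Q` fixing the axis `s6` is near or conjugate to the base one. -/
theorem classify_fixed {x : G} (hx : x * z = z * x) (hx2 : x * x = 1) (hxQ : x ∉ Q)
    (hxs : h.act x s6 = s6)
    (htriv : ∀ a, b6 a s6 = 0 → h.act x a = a ∨ h.act x a = a + s6) :
    Near z Q x ∨ ∃ c, c * z = z * c ∧ c * x * c⁻¹ = y * v0 := by
  obtain ⟨hpw, hpd, -, hqw, hqd, hwd, -, -, hw60⟩ := consts
  have hqf := model.hp.qf
  obtain ⟨w, hw, hact⟩ := model.hp.exists_rho (h.act_add hx) (fun a => h.act_q hx a) hxs htriv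
  obtain ⟨u, hu⟩ := hA.exists_lift hw
  have hui : u⁻¹ * z = z * u⁻¹ := (Commute.inv_left hu.1.1).eq
  have hv : u⁻¹ * x ∈ Q := by
    refine h.mem_of_act (by rw [mul_assoc, hx, ← mul_assoc, hui, mul_assoc]) fun a => ?_
    rw [h.act_mul hui hx, hact, ← hu.2.2, ← h.act_mul hui hu.1.1, inv_mul_cancel, h.act_one]
  have hw0 : w ≠ 0 := fun e => hxQ (h.mem_of_act hx fun a => by rw [hact, e, model.hp.rho_zero])
  obtain ⟨v, rfl⟩ : ∃ v, x = u * v := ⟨u⁻¹ * x, (mul_inv_cancel_left u x).symm⟩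
  rw [inv_mul_cancel_left] at hv
  -- the quotient part of `v`
  have hu2 : u * u ∈ Q ∧ φ (u * u) = q6 w • s6 := by
    rcases z2 (q6 w) with k | k <;> rw [k]
    · rw [(hA.sq_iff hu).2 k, zero_smul]
      exact ⟨one_mem _, h.map_one⟩
    · rw [(hA.sq_S hu.1.2).resolve_left fun e => by
        rw [(hA.sq_iff hu).1 e] at k; exact zero_ne_one k, one_smul]
      exact ⟨hA.mem, hA.img⟩
  have huvu : u * v * u⁻¹ ∈ Q := h.conj_memQ hu.1.1 hv
  have heq : rho q6 b6 s6 w (φ v) + q6 w • s6 + φ v = 0 := by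
    rw [← hu.2.2, h.act_map hu.1.1 hv, ← hu2.2, ← h.map_mul _ huvu _ hu2.1,
      ← h.map_mul _ (mul_mem huvu hu2.1) _ hv, ← h.map_one]
    congr 1
    rw [← hx2]
    group
  have heq' : b6 (φ v) s6 • w + (b6 (φ v) w + b6 (φ v) s6 * q6 w + q6 w) • s6 = 0 := by
    rw [rho] at heq
    rw [add_smul _ (q6 w)]
    rw [← heq]
    rw [add_comm _ (φ v)]
    conv_rhs => rw [add_assoc (φ v) _ _, add_assoc (φ v) _ _, add_left_self]
    abel
  have hvs0 : b6 (φ v) s6 = 0 := by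
    refine (z2 _).resolve_right fun e => hw0 ?_
    rw [e, one_smul] at heq'
    have e2 := congrArg (fun t => b6 t f6) heq'
    simp [hw.2, model.hp.bsf] at e2
    have e2' : b6 (φ v) w + 1 * q6 w + q6 w = 0 := by rw [one_mul]; exact e2
    rw [e2', zero_smul, add_zero] at heq'
    exact heq'
  have hvw : b6 (φ v) w = q6 w := by
    rw [hvs0, zero_smul, zero_add, zero_mul, add_zero] at heq'
    have e2 := congrArg (fun t => b6 t f6) heq'
    simp [model.hp.bsf] at e2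
    exact CharTwo.add_eq_zero.1 e2
  have hvs : v * s = s * v := (hA.img_comm hv).2 hvs0
  rcases z2 (q6 w) with hq | hq
  · -- the singular case
    left
    rw [hq] at hvw
    have hvu := hA.commute_of_perp hv hvs hu hvw
    have huu := (hA.sq_iff hu).2 hq
    have hv2 : v * v = 1 := by
      rw [show u * v * (u * v) = u * (v * u) * v by group, hvu,
        show u * (u * v) * v = u * u * (v * v) by group, huu, one_mul] at hx2
      exact hx2
    obtain ⟨d, hd, hdec⟩ := model.hp.decomp (φ v)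
    rw [hvs0, zero_smul, add_zero] at hdec
    have hqd0 : q6 d = 0 := by rw [← (h.map_sq v hv).1 hv2, hdec, model.hp.q_smul_s_add _ hd.1]
    have hBd : b6 d w = 0 := by
      have := hvw
      rw [hdec] at this
      simpa [hqf.symm s6 w, hw.1] using this
    obtain ⟨β, rfl⟩ : ∃ β : ZMod 2, d = β • w := by
      rcases sing_perp' hw hw0 hq hd hqd0 hBd with r | r
      · exact ⟨0, by simp [r]⟩
      · exact ⟨1, by simp [r]⟩
    generalize b6 (φ v) f6 = α at hdec
    obtain ⟨n, hn, -, hnw⟩ := model.neighbour w hw hw0 hq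
    obtain ⟨e, he, hed⟩ := h.map_surj (β • f6 + α • n)
    have hez := h.ci.comm e he
    have hm1 : u⁻¹ * e * u ∈ Q := by
      have := h.conj_memQ hui he
      rwa [inv_inv] at this
    have hφ : φ (u⁻¹ * e * u * e⁻¹) = φ v := by
      have e2 : φ (u⁻¹ * e * u) = rho q6 b6 s6 w (φ e) := by
        have hh : h.act u (φ (u⁻¹ * e * u)) = φ e := by
          rw [h.act_map hu.1.1 hm1]; congr 1; group
        rw [← hh, hu.2.2, model.hp.rho_mul hw hw, add_self', model.hp.rho_zero]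
      rw [h.map_mul _ hm1 _ (inv_mem he), h.map_inv he, e2, rho, hed, hdec]
      have r1 : b6 (β • f6 + α • n) s6 = β := by simp [model.hp.bfs, hn.1]
      have r2 : b6 (β • f6 + α • n) w = α := by
        have e3 : b6 f6 w = 0 := (hqf.symm _ _).trans hw.2
        simp [e3, hqf.symm n w, hnw]
      rw [r1, r2, hq, mul_zero, add_zero]
      generalize β • f6 + α • n = p
      calc p + β • w + α • s6 + p = (p + p) + (α • s6 + β • w) := by abel
        _ = _ := by rw [add_self', zero_add]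
    obtain ⟨u', hu', hu'Q, hxe⟩ : ∃ u', Rd z Q g u' ∧ u' ∉ Q ∧ u * v = e * u' * e⁻¹ := by
      have hnQ : ∀ a ∈ Q, u * a ∉ Q := fun a ha hh => hxQ (by
        have e : u * v = u * a * (a⁻¹ * v) := by group
        rw [e]
        exact mul_mem hh (mul_mem (inv_mem ha) hv))
      rcases h.eq_or_of_map_eq hv (mul_mem hm1 (inv_mem he)) hφ.symm with r | r
      · exact ⟨u, hu.1, fun hh => hnQ 1 (one_mem _) (by simpa using hh), by rw [r]; group⟩
      · refine ⟨u * z, hA.rd_mul hu.1 ⟨rfl, hA.z_memS⟩, hnQ z h.ci.mem, ?_⟩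
        rw [r]
        calc u * (u⁻¹ * e * u * e⁻¹ * z) = e * u * (e⁻¹ * z * e) * e⁻¹ := by group
          _ = e * (u * z) * e⁻¹ := by rw [mul_assoc e⁻¹ z e, ← hez]; group
    have hk : e * g * z * (e * g)⁻¹ = e * s * e⁻¹ := by rw [hA.eq]; group
    refine ⟨e * g, hk ▸ h.conj_memQ hez hA.mem, fun r => hA.ne_z ?_,
      fun r => hxQ (by rw [r, hk]; exact h.conj_memQ hez hA.mem), ?_⟩
    · rw [hk] at r
      calc s = e⁻¹ * (e * s * e⁻¹) * e := by group
        _ = e⁻¹ * (z * e) := by rw [r]; group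
        _ = z := by rw [← hez]; group
    · rw [hxe]
      convert hu'.2 using 1
      group
  · -- the non-singular case
    right
    obtain ⟨c, hc, hcs, hc0, -, hcw, -⟩ := hA.exists_move (fun t ht => ht)
      (model.transD w w6 hw hpw hw0 hw60 (by rw [hq, hqw]))
    have hcu := hA.hasW_conj hc hcs hc0 (hcw ▸ hpw) hu
    rw [hcw] at hcu
    obtain ⟨k, hk, hkeq⟩ := hA.hasW_congr hy hcu
    have hkQ : k ∈ Q := by
      rcases hk with rfl | rfl | rfl | rfl
      · exact one_mem _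
      · exact h.ci.mem
      · exact hA.mem
      · exact mul_mem hA.mem h.ci.mem
    set v' := k * (c * v * c⁻¹) with hv'
    have hv'Q : v' ∈ Q := mul_mem hkQ (h.conj_memQ hc hv)
    have hx' : c * (u * v) * c⁻¹ = y * v' := by
      calc c * (u * v) * c⁻¹ = (c * u * c⁻¹) * (c * v * c⁻¹) := by group
        _ = y * v' := by rw [hkeq, hv', mul_assoc]
    have hks : φ k = 0 ∨ φ k = s6 := hA.inter_img hkQ (hA.X_memS hk)
    have hs1 : b6 s6 w6 = 0 := perp_data.2.1
    have hs2 : b6 s6 s6 = 0 := perp_data.1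
    have hv's : b6 (φ v') s6 = 0 := by
      have e := h.act_B hc (φ v) s6
      rw [hc0, hvs0, h.act_map hc hv] at e
      rw [hv', h.map_mul _ hkQ _ (h.conj_memQ hc hv), map_add, LinearMap.add_apply, e]
      rcases hks with r | r <;> rw [r] <;> simp [hs2]
    have hv'w : b6 (φ v') w6 = 1 := by
      have e := h.act_B hc (φ v) w
      rw [hcw, hvw, hq, h.act_map hc hv] at e
      rw [hv', h.map_mul _ hkQ _ (h.conj_memQ hc hv), map_add, LinearMap.add_apply, e]
      rcases hks with r | r <;> rw [r] <;> simp [hs1]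
    have hv's' : v' * s = s * v' := (hA.img_comm hv'Q).2 hv's
    have hq' : q6 (φ v') = 1 := by
      refine (z2 _).resolve_left fun e => h.ci.ne_one ?_
      have hx'2 : y * v' * (y * v') = 1 := by
        rw [← hx', show c * (u * v) * c⁻¹ * (c * (u * v) * c⁻¹) = c * (u * v * (u * v)) * c⁻¹ by group,
          hx2]
        group
      rw [sq_outer h hA hy hv'Q hv's' hv'w, (h.map_sq v' hv'Q).2 e, mul_one] at hx'2
      exact hx'2
    obtain ⟨c', hc', hc'eq⟩ := outer_normal h hA hy hv0 hv0d hv'Q hv's' hq' hv'w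
    refine ⟨c' * c, by rw [mul_assoc, hc, ← mul_assoc, hc', mul_assoc], ?_⟩
    calc c' * c * (u * v) * (c' * c)⁻¹ = c' * (c * (u * v) * c⁻¹) * c'⁻¹ := by group
      _ = y * v0 := by rw [hx', hc'eq]

/-- An involution outside `Q` is near or conjugate to the base one. -/
theorem classify
    (hax : ∀ c, c * z = z * c → c ∉ Q → c * c ∈ Q →
      ∃ a, q6 a = 0 ∧ a ≠ 0 ∧ h.act c a = a ∧ ∀ x, b6 x a = 0 → h.act c x = x ∨ h.act c x = x + a)
    {x : G} (hx : x * z = z * x) (hx2 : x * x = 1) (hxQ : x ∉ Q) :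
    Near z Q x ∨ ∃ c, c * z = z * c ∧ c * x * c⁻¹ = y * v0 := by
  obtain ⟨a, hqa, ha0, hxa, htr⟩ := hax x hx hxQ (by rw [hx2]; exact one_mem _)
  obtain ⟨c, hc, hca, -⟩ := h.lift_orb (orb_symm (model.trans a hqa ha0))
  have hci : c⁻¹ * z = z * c⁻¹ := (Commute.inv_left hc).eq
  have hcx : c * x * c⁻¹ * z = z * (c * x * c⁻¹) := by
    rw [mul_assoc _ c⁻¹, hci, ← mul_assoc, mul_assoc c x z, hx, ← mul_assoc c z x, hc]; group
  have hinv : ∀ t, h.act c (h.act c⁻¹ t) = t := fun t => by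
    rw [← h.act_mul hc hci, mul_inv_cancel, h.act_one]
  have hact : ∀ t, h.act (c * x * c⁻¹) (h.act c t) = h.act c (h.act x t) := fun t => by
    rw [← h.act_mul hcx hc, inv_mul_cancel_right, h.act_mul hc hx]
  have key := classify_fixed h hA hy hv0 hv0d hcx
    (by rw [show c * x * c⁻¹ * (c * x * c⁻¹) = c * (x * x) * c⁻¹ by group, hx2]; group)
    (fun e => hxQ (by
      have := h.conj_memQ hci e
      convert this using 1
      group))
    (by rw [← hca, hact, hxa])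
    (fun t ht => by
      rw [← hinv t, ← hca, h.act_B hc] at ht
      have e := htr _ ht
      rw [← hinv t, ← hca, hact, ← h.act_add hc]
      exact e.imp (congrArg _) (congrArg _))
  rcases key with hn | ⟨c', hc', he⟩
  · left
    have := near_conj h hci hn
    convert this using 1
    group
  · refine Or.inr ⟨c' * c, by rw [mul_assoc, hc, ← mul_assoc, hc', mul_assoc], ?_⟩
    rw [← he]; group

/-- The base outer involution. -/
theorem base_props : (y * v0) * z = z * (y * v0) ∧ y * v0 * (y * v0) = 1 ∧ y * v0 ∉ Q ∧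
    (∀ a, h.act (y * v0) a = rho q6 b6 s6 w6 a) ∧ ¬ Near z Q (y * v0) := by
  obtain ⟨hpw, hpd, -, hqw, hqd, hwd, -, -, hw60⟩ := consts
  have hqf := model.hp.qf
  have hv0z := h.ci.comm v0 hv0
  have hv0s : v0 * s = s * v0 := (hA.img_comm hv0).2 (by rw [hv0d]; exact hpd.1)
  have hz : y * v0 * z = z * (y * v0) := by rw [mul_assoc, hv0z, ← mul_assoc, hy.1.1, mul_assoc]
  have hsq : y * v0 * (y * v0) = 1 := by
    rw [sq_outer h hA hy hv0 hv0s (by rw [hv0d, hqf.symm, hwd]), h.sq_eq_z hv0 (by rw [hv0d, hqd]),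
      h.ci.sq]
  have hact : ∀ a, h.act (y * v0) a = rho q6 b6 s6 w6 a := fun a => by
    rw [h.act_mul hy.1.1 hv0z, h.act_of_mem hv0, hy.2.2]
  have hQ : y * v0 ∉ Q := fun e => by
    have := h.act_of_mem e f6
    rw [hact, model.hp.rho_f hpw, add_assoc, add_eq_left] at this
    have e2 := congrArg (fun t => b6 t d6) this
    simp [perp_data.2.2.1, hwd] at e2
  refine ⟨hz, hsq, hQ, hact, ?_⟩
  rintro ⟨k, hk, hkz, -, hkt⟩
  have hk1 : k * z * k⁻¹ ≠ 1 := fun e => h.ci.ne_one (conj_eq_one_iff.1 e)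
  have hk2 : k * z * k⁻¹ * (k * z * k⁻¹) = 1 := by
    rw [show k * z * k⁻¹ * (k * z * k⁻¹) = k * (z * z) * k⁻¹ by group, h.ci.sq]; group
  obtain ⟨c0, hc0, hc0a, -⟩ := h.lift_orb
    (orb_symm (model.trans (φ (k * z * k⁻¹)) ((h.map_sq _ hk).1 hk2) (map_ne_zero h hk hk1 hkz)))
  have hp : φ (c0 * (k * z * k⁻¹) * c0⁻¹) = φ s := by rw [← h.act_map hc0 hk, hc0a, hA.img]
  obtain ⟨c, hc, hcp⟩ : ∃ c, c * z = z * c ∧ c * (k * z * k⁻¹) * c⁻¹ = s := by
    rcases h.eq_or_of_map_eq (h.conj_memQ hc0 hk) hA.mem hp with r | r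
    · exact ⟨c0, hc0, r⟩
    · obtain ⟨j, hj, -, hjs⟩ := exists_swap_conj h hA.mem hA.s_ne_one hA.ne_z
      refine ⟨j * c0, by rw [mul_assoc, hc0, ← mul_assoc, h.ci.comm j hj, mul_assoc], ?_⟩
      calc j * c0 * (k * z * k⁻¹) * (j * c0)⁻¹ = j * (c0 * (k * z * k⁻¹) * c0⁻¹) * j⁻¹ := by group
        _ = s := by rw [r, hjs]
  have hci : c⁻¹ * z = z * c⁻¹ := (Commute.inv_left hc).eq
  set t' := c * (y * v0) * c⁻¹ with ht'
  have ht'z : t' * z = z * t' := by
    rw [ht', mul_assoc _ c⁻¹, hci, ← mul_assoc, mul_assoc c _ z, hz, ← mul_assoc c z, hc]; group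
  have hS : g⁻¹ * t' * g ∈ Q := by
    refine h.conjQ_congr (a := c * k) ?_ ?_
    · rw [← hA.eq, ← hcp]; group
    · rw [ht']; convert hkt using 1; group
  obtain ⟨w', hw', hw'act⟩ := hA.exists_omega ⟨ht'z, hS⟩
  have hqw' : q6 w' = 0 := (hA.sq_iff (u := t') ⟨⟨ht'z, hS⟩, hw', hw'act⟩).1 (by
    rw [ht', show c * (y * v0) * c⁻¹ * (c * (y * v0) * c⁻¹) = c * (y * v0 * (y * v0)) * c⁻¹ by group,
      hsq]
    group)
  have h1 : ∀ a, q6 (h.act t' a + a) = 0 := fun a => by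
    rw [hw'act]
    have hBw : b6 w' s6 = 0 := hw'.1
    rw [rho, hqw', mul_zero, add_zero, add_comm _ a, add_assoc, add_left_self, hqf.add]
    rcases z2 (b6 a s6) with r | r <;> rcases z2 (b6 a w') with r' | r' <;>
      simp [r, r', hqf.zero, hqw', hBw, model.hp.qs]
  have e := h1 (h.act c f6)
  rw [ht', ← h.act_mul (ht' ▸ ht'z) hc, inv_mul_cancel_right, h.act_mul hc hz, ← h.act_add hc,
    h.act_q hc, hact, model.hp.rho_f hpw, hqw, one_smul, add_comm _ f6, add_assoc, add_left_self,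
    hqf.add, hqw, model.hp.qs, hpw.1] at e
  exact absurd e (by decide)

/-- The base outer involution is not conjugate to `z`. -/
theorem not_conj
    (hax : ∀ c, c * z = z * c → c ∉ Q → c * c ∈ Q →
      ∃ a, q6 a = 0 ∧ a ≠ 0 ∧ h.act c a = a ∧ ∀ x, b6 x a = 0 → h.act c x = x ∨ h.act c x = x + a) :
    ¬ IsConj z (y * v0) := by
  classical
  obtain ⟨hpw, hpd, -, hqw, hqd, hwd, -, -, hw60⟩ := consts
  have hqf := model.hp.qf
  obtain ⟨hz, hsq, hQ, hact, hnear⟩ := base_props h hA hy hv0 hv0d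
  intro hconj
  obtain ⟨τ0, hτ0⟩ := isConj_iff.1 hconj
  set t := y * v0
  have htz : t ≠ z := fun e => hQ (e ▸ h.ci.mem)
  have hcx : (τ0⁻¹ * z * τ0) * z = z * (τ0⁻¹ * z * τ0) := by
    have hzt : z * (τ0 * z * τ0⁻¹) = τ0 * z * τ0⁻¹ * z := by rw [hτ0, hz]
    calc τ0⁻¹ * z * τ0 * z = τ0⁻¹ * (z * (τ0 * z * τ0⁻¹)) * τ0 := by group
      _ = _ := by rw [hzt]; group
  have hne : τ0⁻¹ * z * τ0 ≠ z := fun e => htz (by
    rw [← hτ0]
    calc τ0 * z * τ0⁻¹ = τ0 * (τ0⁻¹ * z * τ0) * τ0⁻¹ := by rw [e]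
      _ = z := by group)
  have hnQ : τ0⁻¹ * z * τ0 ∉ Q := fun e => by
    have := h.symm_mem (a := 1) (b := τ0⁻¹) (by simpa using e) (by simpa using hne)
    simp [hτ0] at this
    exact hQ this
  rcases classify h hA hy hv0 hv0d hax hcx
    (by rw [show τ0⁻¹ * z * τ0 * (τ0⁻¹ * z * τ0) = τ0⁻¹ * (z * z) * τ0 by group, h.ci.sq]; group)
    hnQ with hn | ⟨c, hc, hce⟩
  · -- near: push to the frame of `z`
    obtain ⟨k, hk, hkz, hxk, hkx⟩ := hn
    have hp : τ0⁻¹ * (τ0 * k * z * (τ0 * k)⁻¹) * τ0 = k * z * k⁻¹ := by group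
    have hzp : z ≠ τ0 * k * z * (τ0 * k)⁻¹ := fun r => hxk (by rw [← hp, ← r])
    have h2 : (τ0 * k)⁻¹ * z * (τ0 * k) ∈ Q := by convert hkx using 1; group
    have h3 : τ0 * k * z * (τ0 * k)⁻¹ ∈ Q := by
      have := h.symm_mem (a := τ0 * k) (b := 1) (by simpa using h2) (by simpa using hzp)
      simpa using this
    have h4 : (τ0 * k)⁻¹ * t * (τ0 * k) ∈ Q := by
      rw [← hτ0]
      refine h.symm_mem (hp.symm ▸ hk) fun r => hkz ?_
      rw [← hp, r]; group
    refine hnear ⟨τ0 * k, h3, hzp.symm, fun r => hQ (by rw [r]; exact h3), h4⟩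
  · -- the symmetric case
    have hci : c⁻¹ * z = z * c⁻¹ := (Commute.inv_left hc).eq
    obtain ⟨τ, hτ1, hτ2⟩ : ∃ τ, τ * z * τ⁻¹ = t ∧ τ * t * τ⁻¹ = z := by
      refine ⟨τ0 * c⁻¹, ?_, ?_⟩
      · calc τ0 * c⁻¹ * z * (τ0 * c⁻¹)⁻¹ = τ0 * (c⁻¹ * z * c) * τ0⁻¹ := by group
          _ = t := by rw [mul_assoc c⁻¹, ← hc, inv_mul_cancel_left, hτ0]
      · rw [show t = c * (τ0⁻¹ * z * τ0) * c⁻¹ from hce.symm]; group
    have hτt : τ⁻¹ * z * τ = t := by rw [← hτ2]; group
    have htr : ∀ a, a ∈ Q → a * t = t * a →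
        τ * a * τ⁻¹ * z = z * (τ * a * τ⁻¹) ∧ τ * a * τ⁻¹ * t = t * (τ * a * τ⁻¹) := by
      intro a ha hat
      constructor
      · calc τ * a * τ⁻¹ * z = τ * (a * (τ⁻¹ * z * τ)) * τ⁻¹ := by group
          _ = _ := by rw [hτt, hat, ← hτt]; group
      · have hzc := h.ci.comm a ha
        calc τ * a * τ⁻¹ * t = τ * (a * z) * τ⁻¹ := by rw [← hτ1]; group
          _ = _ := by rw [hzc, ← hτ1]; group
    have hdis : ∀ a, a ∈ Q → a * t = t * a → τ⁻¹ * a * τ ∈ Q → a = 1 := by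
      intro a ha hat haτ
      have hzn : τ⁻¹ * z * τ ∉ Q := by rw [hτt]; exact hQ
      rcases h.ci.sq_mem ha with r | r
      · by_contra ha1
        have haz : a ≠ z := fun e => hzn (e ▸ haτ)
        obtain ⟨j, hj⟩ := exists_conj_of_mem h hA ha r ha1 haz
        have hat' : a ≠ t := fun e => hQ (e ▸ ha)
        have := h.symm_mem (a := τ) (b := j) (by rw [hj]; exact haτ) (by rw [hj, hτ1]; exact hat')
        rw [hτ1] at this
        exact hnear ⟨j, hj.symm ▸ ha, hj.symm ▸ haz, hj.symm ▸ hat'.symm, this⟩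
      · exfalso
        refine hzn ?_
        rw [← r, show τ⁻¹ * (a * a) * τ = (τ⁻¹ * a * τ) * (τ⁻¹ * a * τ) by group]
        exact mul_mem haτ haτ
    have hcomm : ∀ a b, a ∈ Q → a * t = t * a → b ∈ Q → b * t = t * b →
        τ * b * τ⁻¹ * a = a * (τ * b * τ⁻¹) := by
      intro a b ha hat hb hbt
      obtain ⟨hbz', hbt'⟩ := htr b hb hbt
      refine mul_inv_eq_iff_eq_mul.1 (mul_inv_eq_one.1 (hdis _
        (mul_mem (h.conj_memQ hbz' ha) (inv_mem ha)) ?_ ?_))
      · exact ((((Commute.mul_left (hbt' : Commute _ t) (hat : Commute a t)).mul_left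
          (Commute.inv_left hbt'))).mul_left (Commute.inv_left hat)).eq
      · have hac : τ⁻¹ * a * τ * z = z * (τ⁻¹ * a * τ) := by
          calc τ⁻¹ * a * τ * z = τ⁻¹ * (a * (τ * z * τ⁻¹)) * τ := by group
            _ = _ := by rw [hτ1, hat, ← hτ1]; group
        rw [show τ⁻¹ * (τ * b * τ⁻¹ * a * (τ * b * τ⁻¹)⁻¹ * a⁻¹) * τ =
          b * ((τ⁻¹ * a * τ) * b⁻¹ * (τ⁻¹ * a * τ)⁻¹) by group]
        exact mul_mem hb (h.conj_memQ hac (inv_mem hb))
    -- the elements of `Q` fixing `t`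
    let S := {a : G // a ∈ Q ∧ a * t = t * a}
    have hmemS : ∀ a ∈ Q, b6 (φ a) s6 = 0 → b6 (φ a) w6 = 0 → b6 (φ a) d6 = 0 → a * t = t * a := by
      intro a ha h1 h2 h3
      have has := (hA.img_comm ha).2 h1
      have hay := hA.commute_of_perp ha has hy h2
      have hav : a * v0 = v0 * a := (h.map_comm a ha v0 hv0).2 (by rw [hv0d]; exact h3)
      show a * (y * v0) = y * v0 * a
      rw [← mul_assoc, hay, mul_assoc, hav, mul_assoc]
    -- the images of `w6` and `d6`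
    have hfix : ∀ a : S, ∀ x, b6 x s6 = 0 → b6 x w6 = 0 → b6 x d6 = 0 →
        h.act (τ * a.1 * τ⁻¹) x = x := by
      rintro ⟨b, hb, hbt⟩ x h1 h2 h3
      obtain ⟨a, ha, rfl⟩ := h.map_surj x
      rw [h.act_map (htr b hb hbt).1 ha, hcomm a b ha (hmemS a ha h1 h2 h3) hb hbt,
        mul_inv_cancel_right]
    obtain ⟨p1, p2, p3, p4, p5, p6, p7, p8, p9⟩ := perp_data
    have himg : ∀ a : S, let M := h.act (τ * a.1 * τ⁻¹)
        (M w6 = w6 ∨ M w6 = w6 + s6) ∧
        (q6 (M d6) = 1 ∧ b6 (M d6) s6 = 0 ∧ b6 (M d6) e6 = 0 ∧ b6 (M d6) t6 = 0 ∧ b6 (M d6) w6 = 1) ∧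
        (q6 (M f6) = 0 ∧ b6 (M f6) s6 = 1 ∧ b6 (M f6) e6 = 0 ∧ b6 (M f6) t6 = 0 ∧
          b6 (M f6) (M w6) = 0 ∧ b6 (M f6) (M d6) = 0) := by
      intro a M
      obtain ⟨hbz, hbt⟩ := htr a.1 a.2.1 a.2.2
      have ms : M s6 = s6 := hfix a s6 p1 p2 p3
      have me : M e6 = e6 := hfix a e6 p4 p5 p6
      have mt : M t6 = t6 := hfix a t6 p7 p8 p9
      have hB : ∀ x x', b6 (M x) (M x') = b6 x x' := h.act_B hbz
      have hadd : ∀ x x', M (x + x') = M x + M x' := h.act_add hbz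
      have hcm : ∀ x, M (rho q6 b6 s6 w6 x) = rho q6 b6 s6 w6 (M x) := fun x => by
        rw [← hact, ← hact]
        show h.act _ (h.act t x) = h.act t (h.act _ x)
        rw [← h.act_mul hbz hz, ← h.act_mul hz hbz, hbt]
      have hfs : b6 (M f6) s6 = 1 := by rw [← ms, hB, model.hp.bfs]
      have hMw : M w6 = w6 ∨ M w6 = w6 + s6 := by
        have e := hcm f6
        rw [model.hp.rho_f hpw, hqw, one_smul, hadd, hadd] at e
        rw [ms, rho, hfs, one_smul, hqw, mul_one] at e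
        rcases z2 (b6 (M f6) w6) with r | r <;> rw [r] at e
        · rw [zero_add, one_smul] at e
          exact Or.inl (add_left_cancel (add_right_cancel e))
        · rw [show (1 : ZMod 2) + 1 = 0 from rfl, zero_smul, add_zero, add_assoc] at e
          refine Or.inr ?_
          calc M w6 = M w6 + s6 + s6 := by rw [add_assoc, add_self', add_zero]
            _ = w6 + s6 := by rw [add_left_cancel e]
      have hbfe : b6 f6 e6 = 0 := by rw [hqf.symm]; decide +kernel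
      have hbft : b6 f6 t6 = 0 := by rw [hqf.symm]; decide +kernel
      have hbdw : b6 d6 w6 = 1 := (hqf.symm _ _).trans hwd
      refine ⟨hMw, ⟨(h.act_q hbz d6).trans hqd, ?_, ?_, ?_, ?_⟩,
        (h.act_q hbz f6).trans model.hp.qff, hfs, ?_, ?_, ?_, ?_⟩
      · rw [← ms, hB]; exact hpd.1
      · rw [← me, hB, hqf.symm]; exact p6
      · rw [← mt, hB, hqf.symm]; exact p9
      · have e1 : b6 (M d6) (M w6) = 1 := (hB _ _).trans hbdw
        have e2 : b6 (M d6) s6 = 0 := by rw [← ms, hB]; exact hpd.1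
        rcases hMw with r | r <;> rw [r] at e1
        · exact e1
        · rwa [map_add, e2, add_zero] at e1
      · rw [← me, hB, hbfe]
      · rw [← mt, hB, hbft]
      · rw [hB, hqf.symm]; exact hpw.2
      · rw [hB, hqf.symm]; exact hpd.2
    -- at most eight such elements
    let F : S → ZMod 2 × ZMod 2 × ZMod 2 := fun a =>
      (h.act (τ * a.1 * τ⁻¹) w6 (.inl (.inl 0)), h.act (τ * a.1 * τ⁻¹) d6 (.inl (.inl 0)),
        h.act (τ * a.1 * τ⁻¹) d6 (.inr 0))
    have hF : Function.Injective F := by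
      intro a b e
      simp only [F, Prod.mk.injEq] at e
      obtain ⟨e1, e2, e3⟩ := e
      obtain ⟨aw, ⟨ad1, ad2, ad3, ad4, ad5⟩, af1, af2, af3, af4, af5, af6⟩ := himg a
      obtain ⟨bw, ⟨bd1, bd2, bd3, bd4, bd5⟩, bf1, bf2, bf3, bf4, bf5, bf6⟩ := himg b
      obtain ⟨haz, -⟩ := htr a.1 a.2.1 a.2.2
      obtain ⟨hbz, -⟩ := htr b.1 b.2.1 b.2.2
      have ew := coord_w _ aw _ bw e1
      have ed : h.act (τ * a.1 * τ⁻¹) d6 = h.act (τ * b.1 * τ⁻¹) d6 := by
        rw [coord_d _ ad1 ad2 ad3 ad4 ad5, coord_d _ bd1 bd2 bd3 bd4 bd5, e2, e3]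
      have ef : h.act (τ * a.1 * τ⁻¹) f6 = h.act (τ * b.1 * τ⁻¹) f6 := by
        have k1 : b6 (h.act (τ * a.1 * τ⁻¹) f6) w6 = b6 (h.act (τ * b.1 * τ⁻¹) f6) w6 := by
          rw [← ew] at bf5
          rcases aw with r | r <;> rw [r] at af5 bf5
          · rw [af5, bf5]
          · rw [map_add, af2] at af5
            rw [map_add, bf2] at bf5
            rw [CharTwo.add_eq_zero.1 af5, CharTwo.add_eq_zero.1 bf5]
        refine coord_f _ af1 af2 af3 af4 _ bf1 bf2 bf3 bf4 k1 ?_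
        rw [← ed] at bf6
        rw [coord_d _ ad1 ad2 ad3 ad4 ad5] at af6 bf6
        simp only [map_add, map_smul, smul_eq_mul, af2, bf2, k1] at af6 bf6
        exact add_left_cancel (af6.trans bf6.symm)
      have hall : ∀ x, h.act (τ * a.1 * τ⁻¹) x = h.act (τ * b.1 * τ⁻¹) x := fun x => by
        rw [basis6 x]
        simp only [h.act_add haz, h.act_add hbz, h.act_smul haz, h.act_smul hbz, hfix a s6 p1 p2 p3,
          hfix b s6 p1 p2 p3, hfix a e6 p4 p5 p6, hfix b e6 p4 p5 p6, hfix a t6 p7 p8 p9,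
          hfix b t6 p7 p8 p9, ew, ed, ef]
      have hbi : (τ * b.1 * τ⁻¹)⁻¹ * z = z * (τ * b.1 * τ⁻¹)⁻¹ := (Commute.inv_left hbz).eq
      have hm : (τ * b.1 * τ⁻¹)⁻¹ * (τ * a.1 * τ⁻¹) ∈ Q := by
        refine h.mem_of_act (by rw [mul_assoc, haz, ← mul_assoc, hbi, mul_assoc]) fun x => ?_
        rw [h.act_mul hbi haz, hall, ← h.act_mul hbi hbz, inv_mul_cancel, h.act_one]
      have hd := hdis _ hm ?_ ?_
      · refine Subtype.ext (inv_mul_eq_one.1 ?_).symm
        calc (b.1)⁻¹ * a.1 = τ⁻¹ * ((τ * b.1 * τ⁻¹)⁻¹ * (τ * a.1 * τ⁻¹)) * τ := by group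
          _ = 1 := by rw [hd]; group
      · exact (Commute.mul_left (Commute.inv_left ((htr b.1 b.2.1 b.2.2).2 : Commute _ t))
          ((htr a.1 a.2.1 a.2.2).2 : Commute _ t)).eq
      · rw [show τ⁻¹ * ((τ * b.1 * τ⁻¹)⁻¹ * (τ * a.1 * τ⁻¹)) * τ = (b.1)⁻¹ * a.1 by group]
        exact mul_mem (inv_mem b.2.1) a.2.1
    -- and at least sixteen
    let E : Bool × {v : V6 // b6 v s6 = 0 ∧ b6 v w6 = 0 ∧ b6 v d6 = 0} → S := fun p =>
      ⟨(h.map_surj p.2.1).choose * cond p.1 z 1, by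
        obtain ⟨hm, he⟩ := (h.map_surj p.2.1).choose_spec
        have hmQ : (h.map_surj p.2.1).choose * cond p.1 z 1 ∈ Q :=
          mul_mem hm (by cases p.1; exacts [one_mem _, h.ci.mem])
        have hmi : φ ((h.map_surj p.2.1).choose * cond p.1 z 1) = p.2.1 := by
          rcases p with ⟨_ | _, v⟩
          · rw [cond_false, mul_one]; exact he
          · rw [cond_true, h.map_mul _ hm _ h.ci.mem, h.map_z, add_zero]; exact he
        exact ⟨hmQ, hmemS _ hmQ (by rw [hmi]; exact p.2.2.1) (by rw [hmi]; exact p.2.2.2.1)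
          (by rw [hmi]; exact p.2.2.2.2)⟩⟩
    have hE : Function.Injective E := by
      rintro ⟨i, v⟩ ⟨j, w⟩ e
      have e' : (h.map_surj v.1).choose * cond i z 1 = (h.map_surj w.1).choose * cond j z 1 :=
        congrArg Subtype.val e
      have hc : ∀ i : Bool, cond i z 1 ∈ Q := fun i => by cases i; exacts [one_mem _, h.ci.mem]
      have hi : ∀ i : Bool, φ (cond i z 1) = 0 := fun i => by cases i; exacts [h.map_one, h.map_z]
      have e2 := congrArg φ e'
      rw [h.map_mul _ (h.map_surj v.1).choose_spec.1 _ (hc i),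
        h.map_mul _ (h.map_surj w.1).choose_spec.1 _ (hc j), hi, hi, add_zero, add_zero,
        (h.map_surj v.1).choose_spec.2, (h.map_surj w.1).choose_spec.2] at e2
      obtain rfl := Subtype.ext e2
      have e3 := mul_left_cancel e'
      cases i <;> cases j <;> first | rfl | exact absurd e3 h.ci.ne_one | exact absurd e3.symm h.ci.ne_one
    have k1 := Nat.card_le_card_of_injective F hF
    have k2 := Nat.card_le_card_of_injective E hE
    rw [Nat.card_prod, Nat.card_prod, Nat.card_zmod] at k1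
    rw [Nat.card_prod, card_fixed, Nat.card_eq_fintype_card (α := Bool), Fintype.card_bool] at k2
    omega

end Cfsg.Agent.SuzType
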